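import Cfsg.Agent.H39.SmithTyrer.Defs
import Cfsg.Agent.H27.Induction
import Cfsg.Agent.H55.FittingHall

/-!
The function `F ν` of the Smith–Tyrer setting is a generalised character: on a nilpotent subgroup
the `p`-part is a homomorphism, and Brauer's characterisation applies.
-/

set_option autoImplicit false

namespace Cfsg.Agent.H33.SmithTyrer

open Cfsg.Agent.H39.SmithTyrer

universe u

variable {G : Type u} [Group G] [Fintype G] {p : ℕ}

/-- On a nilpotent subgroup, taking the `p`-part is an endomorphism. -/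
theorem exists_ppHom [Fact p.Prime] {E : Subgroup G} (hE : Group.IsNilpotent E) :
    ∃ f : ↥E →* ↥E, ∀ e : ↥E, ((f e : E) : G) = pp p (e : G) := by
  classical
  haveI := hE
  obtain ⟨Q⟩ : Nonempty (Sylow p ↥E) := inferInstance
  haveI hQ : (Q : Subgroup ↥E).Normal :=
    ((Group.isNilpotent_of_finite_tfae (G := ↥E)).out 0 3 rfl rfl).1 hE p inferInstance Q
  obtain ⟨K, hK⟩ := Subgroup.exists_right_complement'_of_coprime Q.card_coprime_index
  have hKp : ¬ p ∣ Nat.card K := by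
    have h1 := hK.card_mul
    rw [← Subgroup.card_mul_index (Q : Subgroup ↥E)] at h1
    rw [Nat.eq_of_mul_eq_mul_left Nat.card_pos h1]
    exact Q.not_dvd_index
  have hord : ∀ k ∈ K, ¬ p ∣ orderOf k := fun k hk h =>
    hKp (h.trans (Subgroup.orderOf_dvd_natCard K hk))
  have hqord : ∀ q ∈ (Q : Subgroup ↥E), ∃ j : ℕ, orderOf q = p ^ j := fun q hq => by
    obtain ⟨j, hj⟩ := IsPGroup.iff_orderOf.1 Q.isPGroup' ⟨q, hq⟩
    exact ⟨j, by rwa [← Subgroup.orderOf_coe] at hj⟩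
  have hcomm : ∀ q ∈ (Q : Subgroup ↥E), ∀ k ∈ K, Commute q k := fun q hq k hk => by
    obtain ⟨j, hj⟩ := hqord q hq
    refine Cfsg.Agent.H55.commute_of_coprime_orderOf hE ?_
    rw [hj]
    exact ((Fact.out : p.Prime).coprime_iff_not_dvd.2 (hord k hk)).pow_left j
  have hpp : ∀ q ∈ (Q : Subgroup ↥E), ∀ k ∈ K, pp p ((q * k : ↥E) : G) = (q : G) := by
    intro q hq k hk
    obtain ⟨j, hj⟩ := hqord q hq
    refine pp_eq ⟨(k : G), by simp, congrArg Subtype.val (hcomm q hq k hk).eq,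
      ⟨j, by rwa [Subgroup.orderOf_coe]⟩, ?_⟩
    rw [Subgroup.orderOf_coe]
    exact hord k hk
  have hsplit : ∀ e : ↥E, ∃ q ∈ (Q : Subgroup ↥E), ∃ k ∈ K, e = q * k := fun e => by
    obtain ⟨x, hx, -⟩ := hK.existsUnique e
    exact ⟨x.1, x.1.2, x.2, x.2.2, hx.symm⟩
  have hmem : ∀ e : ↥E, pp p (e : G) ∈ E := fun e => by
    obtain ⟨q, hq, k, hk, rfl⟩ := hsplit e
    rw [hpp q hq k hk]
    exact q.2
  refine ⟨MonoidHom.mk' (fun e => ⟨pp p (e : G), hmem e⟩) fun a b => ?_, fun e => rfl⟩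
  obtain ⟨q, hq, k, hk, rfl⟩ := hsplit a
  obtain ⟨q', hq', k', hk', rfl⟩ := hsplit b
  have e1 : q * k * (q' * k') = (q * q') * (k * k') := by
    rw [mul_assoc, ← mul_assoc k, ← (hcomm q' hq' k hk).eq]
    simp only [mul_assoc]
  apply Subtype.ext
  show pp p ((q * k * (q' * k') : ↥E) : G) =
    pp p ((q * k : ↥E) : G) * pp p ((q' * k' : ↥E) : G)
  rw [e1, hpp _ (mul_mem hq hq') _ (mul_mem hk hk'), hpp q hq k hk, hpp q' hq' k' hk',
    Subgroup.coe_mul]

/-- On a nilpotent subgroup the `p`-parts are simultaneously conjugate into `P`. -/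
theorem exists_hom_into (D : Setup G p) {E : Subgroup G} (hE : Group.IsNilpotent E) :
    ∃ c : ↥E →* ↥(D.P : Subgroup G),
      ∀ e : ↥E, (D.rep (e : G) = c e ∨ D.rep (e : G) = (c e)⁻¹) ∧
        (pp p (e : G) = 1 → c e = 1) := by
  haveI : Fact p.Prime := ⟨D.hp⟩
  obtain ⟨f, hf⟩ := exists_ppHom (p := p) hE
  let f' : ↥E →* G := E.subtype.comp f
  have hR : IsPGroup p f'.range := by
    rintro ⟨x, e, rfl⟩
    obtain ⟨n, hn⟩ := pp_pgroup (p := p) (e : G) ⟨pp p (e : G), Subgroup.mem_zpowers _⟩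
    have hn' : pp p (e : G) ^ p ^ n = 1 := congrArg Subtype.val hn
    refine ⟨n, Subtype.ext ?_⟩
    show (f' e) ^ p ^ n = 1
    rw [show f' e = pp p (e : G) from hf e, hn']
  obtain ⟨Q, hQ⟩ := hR.exists_le_sylow
  obtain ⟨h, hh⟩ := MulAction.exists_smul_eq G Q D.P
  have hmem : ∀ e : ↥E, h * f' e * h⁻¹ ∈ (D.P : Subgroup G) := fun e => by
    rw [← hh, Sylow.coe_subgroup_smul]
    exact Subgroup.smul_mem_pointwise_smul (f' e) (MulAut.conj h) (Q : Subgroup G)
      (hQ ⟨e, rfl⟩)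
  refine ⟨((MulAut.conj h).toMonoidHom.comp f').codRestrict _ hmem, fun e =>
    ⟨D.rep_of_conj _ (h := h) ?_, fun he => ?_⟩⟩
  · show h * pp p (e : G) * h⁻¹ = h * f' e * h⁻¹
    rw [show f' e = pp p (e : G) from hf e]
  · apply Subtype.ext
    show h * f' e * h⁻¹ = 1
    rw [show f' e = pp p (e : G) from hf e, he]
    group

theorem F_isGen (D : Setup G p) (ν : ↥(D.P : Subgroup G) →* ℂˣ) :
    Cfsg.IsGeneralizedCharacter G (D.F ν) := by
  classical
  refine Cfsg.Agent.H27.mem_genChars_of_elementary (D.ext_isClassFunction (D.twoSub_isEven ν)) ?_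
  intro E q hq hEl
  obtain ⟨c, hc⟩ := exists_hom_into D (Cfsg.Agent.H27.isNilpotent_of_isElementary hq hEl)
  let lam : ↥E →* ℂˣ := ν.comp c
  have hlin : ∀ m : ↥E →* ℂˣ, Cfsg.IsCharacter ↥E (fun e => (m e : ℂ)) := fun m =>
    Cfsg.Agent.H26.isCharacter_of_irr (Cfsg.Agent.H26.isIrrCharacter_hom m)
  refine ⟨(fun _ => ((1 : ↥E →* ℂˣ) 1 : ℂ)) + (fun _ => ((1 : ↥E →* ℂˣ) 1 : ℂ)),
    (fun e => (lam e : ℂ)) + (fun e => (lam⁻¹ e : ℂ)), ?_,
    Cfsg.Agent.H26.isCharacter_add (hlin lam) (hlin lam⁻¹), ?_⟩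
  · have h1 : Cfsg.IsCharacter ↥E (fun _ => ((1 : ↥E →* ℂˣ) 1 : ℂ)) := by
      simpa using hlin 1
    exact Cfsg.Agent.H26.isCharacter_add h1 h1
  · funext e
    have key : D.ext (D.twoSub ν) (e : G) = D.twoSub ν (c e) := by
      unfold Setup.ext
      split_ifs with h
      · rw [(hc e).2 h]
        simp [Setup.twoSub]
        norm_num
      · rcases (hc e).1 with h' | h' <;> rw [h']
        exact D.twoSub_isEven ν _
    show D.ext (D.twoSub ν) (e : G) = _
    rw [key]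
    simp [Setup.twoSub, lam]
    ring

end Cfsg.Agent.H33.SmithTyrer
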